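import Cfsg.Agent.H220.EP.ASeven

/-!
# S3499, socle `A₇` in `U₃(5)` (helper220)

`EPT A Γ` with socle `A₇` is impossible when `|Q| = 126000`.
-/

set_option autoImplicit false

namespace Cfsg.Agent.H220.EP

open Equiv Equiv.Perm Subgroup MulAction Cfsg.Agent.H839.EP Cfsg.Agent.H284
open scoped Pointwise

/-! ### sets of points -/

theorem exists_two {Δ : Finset (Fin 7)} (h : Δ.card ≤ 3) : ∃ a b, a ∉ Δ ∧ b ∉ Δ ∧ a ≠ b := by
  have h1 : 1 < (Δᶜ).card := by
    rw [Finset.card_compl, Fintype.card_fin]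
    omega
  obtain ⟨a, ha, b, hb, hab⟩ := Finset.one_lt_card.1 h1
  exact ⟨a, b, Finset.mem_compl.1 ha, Finset.mem_compl.1 hb, hab⟩

theorem exists_perm_smul {Δ Δ' : Finset (Fin 7)} (h : Δ.card = Δ'.card) : ∃ g : Perm (Fin 7), g • Δ = Δ' := by
  let f : {x // x ∈ Δ} ≃ {x // x ∈ Δ'} := Finset.equivOfCardEq h
  refine ⟨f.extendSubtype, ?_⟩
  apply Finset.eq_of_subset_of_card_le
  · intro j hj
    obtain ⟨i, hi, rfl⟩ := Finset.mem_smul_finset.1 hj
    exact f.extendSubtype_mem i hi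
  · rw [Finset.card_smul_finset, h]

theorem exists_A7_smul {Δ Δ' : Finset (Fin 7)} (h : Δ.card = Δ'.card) (h3 : Δ.card ≤ 3) :
    ∃ g ∈ A7, g • Δ = Δ' := by
  obtain ⟨g, hg⟩ := exists_perm_smul h
  rcases Int.units_eq_one_or (sign g) with h1 | h1
  · exact ⟨g, mem_alternatingGroup.2 h1, hg⟩
  · obtain ⟨a, b, ha, hb, hab⟩ := exists_two h3
    refine ⟨g * swap a b, ?_, ?_⟩
    · rw [mem_alternatingGroup, map_mul, h1, sign_swap hab]
      rfl
    · rw [mul_smul]
      have h2 : swap a b ∈ SS Δ := by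
        rw [mem_SS]
        intro i hi
        rw [swap_apply_of_ne_of_ne]
        · exact hi
        · rintro rfl
          exact ha hi
        · rintro rfl
          exact hb hi
      rw [mem_stabilizer_iff.1 h2, hg]

/-- the set is determined by its stabiliser in `A7` -/
theorem SS_unique {Δ Δ' : Finset (Fin 7)} (h1 : 1 ≤ Δ'.card) (h3 : Δ.card ≤ 3) (h3' : Δ'.card ≤ 3)
    (h : ∀ g ∈ A7, g ∈ SS Δ → g ∈ SS Δ') : Δ' = Δ := by
  have hsub : Δ' ⊆ Δ := by
    intro i hi
    by_contra hiΔ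
    have h4 : 0 < (Δᶜ \ Δ').card := by
      have h5 := Finset.le_card_sdiff Δ' Δᶜ
      rw [Finset.card_compl, Fintype.card_fin] at h5
      omega
    obtain ⟨j, hj⟩ := Finset.card_pos.1 h4
    rw [Finset.mem_sdiff, Finset.mem_compl] at hj
    have hij : i ≠ j := by
      rintro rfl
      exact hj.2 hi
    have h6 : 0 < (Δᶜ \ {i, j}).card := by
      have h5 := Finset.le_card_sdiff {i, j} Δᶜ
      have h7 : ({i, j} : Finset (Fin 7)).card ≤ 2 := Finset.card_le_two
      rw [Finset.card_compl, Fintype.card_fin] at h5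
      omega
    obtain ⟨k, hk⟩ := Finset.card_pos.1 h6
    rw [Finset.mem_sdiff, Finset.mem_compl, Finset.mem_insert, Finset.mem_singleton, not_or] at hk
    obtain ⟨hk1, hk2, hk3⟩ := hk
    have hg : swap i j * swap j k ∈ SS Δ' := by
      apply h
      · rw [mem_alternatingGroup, map_mul, sign_swap hij, sign_swap (Ne.symm hk3)]
        rfl
      · rw [mem_SS]
        intro l hl
        have hli : l ≠ i := by
          rintro rfl
          exact hiΔ hl
        have hlj : l ≠ j := by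
          rintro rfl
          exact hj.1 hl
        have hlk : l ≠ k := by
          rintro rfl
          exact hk1 hl
        rw [Perm.mul_apply, swap_apply_of_ne_of_ne hlj hlk, swap_apply_of_ne_of_ne hli hlj]
        exact hl
    have h8 := mem_SS.1 hg i hi
    rw [Perm.mul_apply, swap_apply_of_ne_of_ne hij (Ne.symm hk2), swap_apply_left] at h8
    exact hj.2 h8
  apply Finset.Subset.antisymm hsub
  intro j hj
  by_contra hj'
  obtain ⟨i, hi⟩ := Finset.card_pos.1 h1
  obtain ⟨a, b, ha, hb, hab⟩ := exists_two h3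
  have hij : i ≠ j := by
    rintro rfl
    exact hj' hi
  have hia : i ≠ a := by
    rintro rfl
    exact ha (hsub hi)
  have hib : i ≠ b := by
    rintro rfl
    exact hb (hsub hi)
  have hg : swap i j * swap a b ∈ SS Δ' := by
    apply h
    · rw [mem_alternatingGroup, map_mul, sign_swap hij, sign_swap hab]
      rfl
    · rw [mem_SS]
      intro l hl
      have hla : l ≠ a := by
        rintro rfl
        exact ha hl
      have hlb : l ≠ b := by
        rintro rfl
        exact hb hl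
      rw [Perm.mul_apply, swap_apply_of_ne_of_ne hla hlb]
      by_cases hli : l = i
      · rw [hli, swap_apply_left]
        exact hj
      · by_cases hlj : l = j
        · rw [hlj, swap_apply_right]
          exact hsub hi
        · rw [swap_apply_of_ne_of_ne hli hlj]
          exact hl
  have h8 := mem_SS.1 hg i hi
  rw [Perm.mul_apply, swap_apply_of_ne_of_ne hia hib, swap_apply_left] at h8
  exact hj' h8

theorem not_seven_SS {Δ : Finset (Fin 7)} (h1 : 1 ≤ Δ.card) (h3 : Δ.card ≤ 3) {D : Subgroup (Perm (Fin 7))}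
    (hD : D ≤ SS Δ) : ¬ 7 ∣ Nat.card D := by
  intro h
  have h7 := pretrans h
  obtain ⟨a, ha⟩ := Finset.card_pos.1 h1
  have h4 : Δ = Finset.univ := by
    rw [Finset.eq_univ_iff_forall]
    intro b
    obtain ⟨g, hg⟩ := h7.exists_smul_eq a b
    rw [← hg]
    exact mem_SS.1 (hD g.2) a ha
  rw [h4, Finset.card_univ, Fintype.card_fin] at h3
  omega

/-! ### the involution `(01)(23)` -/

/-- the involution `(01)(23)` -/
def tt : Perm (Fin 7) := swap 0 1 * swap 2 3

theorem tt_mem : tt ∈ A7 := by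
  rw [mem_alternatingGroup, tt]
  decide

theorem tt_cycleType : tt.cycleType = {2, 2} := by
  have hd : Disjoint (swap 0 1 : Perm (Fin 7)) (swap 2 3) := by
    intro x
    fin_cases x <;> decide
  rw [tt, hd.cycleType_mul, (swap_isSwap_iff.2 (by decide)).isCycle.cycleType,
    (swap_isSwap_iff.2 (by decide)).isCycle.cycleType, card_support_swap (by decide), card_support_swap (by decide)]
  rfl

theorem tt_comm : swap 0 1 * tt = tt * swap 0 1 := by
  rw [tt]
  decide

theorem tt_order : orderOf tt = 2 := by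
  apply orderOf_eq_prime
  · rw [tt]
    decide
  · rw [tt]
    decide

theorem card_cent_tt : Nat.card ↥(centralizer ({tt} : Set (Perm (Fin 7))) ⊓ A7) = 24 := by
  have h48 : Nat.card (centralizer ({tt} : Set (Perm (Fin 7)))) = 48 := by
    rw [nat_card_centralizer, tt_cycleType]
    simp only [Fintype.card_fin]
    decide
  have h1 := card_mul_index (A7.subgroupOf (centralizer ({tt} : Set (Perm (Fin 7)))))
  have h2 : A7.relIndex (centralizer ({tt} : Set (Perm (Fin 7)))) ∣ A7.index := relIndex_dvd_index_of_normal _ _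
  have h3 : A7.index = 2 := by
    have := card_mul_index A7
    rw [card_A7, card_P7] at this
    omega
  have h4 : A7.relIndex (centralizer ({tt} : Set (Perm (Fin 7)))) ≠ 1 := by
    rw [Ne, relIndex_eq_one]
    intro h
    have h5 : swap 0 1 ∈ centralizer ({tt} : Set (Perm (Fin 7))) := by
      rw [mem_centralizer_singleton_iff]
      exact tt_comm
    have h6 := h h5
    rw [mem_alternatingGroup, sign_swap (by decide)] at h6
    exact absurd h6 (by decide)
  have h5 : A7.relIndex (centralizer ({tt} : Set (Perm (Fin 7)))) = 2 := by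
    rw [h3] at h2
    rcases (Nat.dvd_prime Nat.prime_two).1 h2 with h | h
    · exact absurd h h4
    · exact h
  rw [relIndex] at h5
  rw [h5, h48, ← inf_subgroupOf_right, card_subgroupOf inf_le_right] at h1
  rw [inf_comm]
  omega

/-- the involutions of `A7` are conjugate -/
theorem conj_tt {s : Perm (Fin 7)} (hs : s ∈ A7) (h2 : orderOf s = 2) : ∃ g ∈ A7, g * s * g⁻¹ = tt := by
  have h1 : ∀ n ∈ s.cycleType, n = 2 := by
    intro n hn
    have h3 : n ∣ 2 := h2 ▸ dvd_of_mem_cycleType hn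
    have h4 := two_le_of_mem_cycleType hn
    rcases (Nat.dvd_prime (by norm_num)).1 h3 with h | h
    · omega
    · exact h
  have h3 := Multiset.eq_replicate_of_mem h1
  have h4 : s.cycleType.sum ≤ 7 := by
    have := s.support.card_le_univ
    rw [sum_cycleType]
    simpa using this
  rw [h3, Multiset.sum_replicate, smul_eq_mul] at h4
  have h5 : Multiset.card s.cycleType ≠ 0 := by
    intro h
    rw [Multiset.card_eq_zero, cycleType_eq_zero] at h
    rw [h, orderOf_one] at h2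
    omega
  have hsg := sign_of_cycleType s
  rw [mem_alternatingGroup.1 hs, h3, Multiset.sum_replicate, Multiset.card_replicate, smul_eq_mul] at hsg
  have h6 : Multiset.card s.cycleType = 1 ∨ Multiset.card s.cycleType = 2 ∨ Multiset.card s.cycleType = 3 := by omega
  have h7 : Multiset.card s.cycleType = 2 := by
    rcases h6 with h6 | h6 | h6
    · rw [h6] at hsg
      exact absurd hsg (by decide)
    · exact h6
    · rw [h6] at hsg
      exact absurd hsg (by decide)
  have h8 : s.cycleType = {2, 2} := by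
    rw [h3, h7]
    rfl
  have hconj : IsConj s tt := by rw [isConj_iff_cycleType_eq, h8, tt_cycleType]
  obtain ⟨g, hg⟩ := isConj_iff.1 hconj
  rcases Int.units_eq_one_or (sign g) with h9 | h9
  · exact ⟨g, mem_alternatingGroup.2 h9, hg⟩
  · refine ⟨swap 0 1 * g, ?_, ?_⟩
    · rw [mem_alternatingGroup, map_mul, h9, sign_swap (by decide)]
      rfl
    · rw [mul_inv_rev]
      calc swap 0 1 * g * s * (g⁻¹ * (swap 0 1)⁻¹) = swap 0 1 * (g * s * g⁻¹) * (swap 0 1)⁻¹ := by group
        _ = tt := by rw [hg, tt_comm, mul_inv_cancel_right]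

/-- sets of points of size at most 3 -/
def FS : Finset (Finset (Fin 7)) := Finset.univ.filter (fun D => 1 ≤ D.card ∧ D.card ≤ 3)

theorem mem_FS {Δ : Finset (Fin 7)} : Δ ∈ FS ↔ 1 ≤ Δ.card ∧ Δ.card ≤ 3 := by
  rw [FS, Finset.mem_filter, and_iff_right (Finset.mem_univ _)]

theorem mem_FS_card {Δ : Finset (Fin 7)} (h : Δ ∈ FS) : Δ.card ∈ ({1, 2, 3} : Finset ℕ) := by
  have h1 := mem_FS.1 h
  simp only [Finset.mem_insert, Finset.mem_singleton]
  omega

theorem sum_FS (M : ℕ → ℕ) : ∑ Δ ∈ FS, M Δ.card = 7 * M 1 + 21 * M 2 + 35 * M 3 := by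
  have h : ∀ Δ ∈ FS, Δ.card ∈ ({1, 2, 3} : Finset ℕ) := fun Δ hΔ => mem_FS_card hΔ
  rw [← Finset.sum_fiberwise_of_maps_to h]
  rw [Finset.sum_insert (by decide), Finset.sum_insert (by decide), Finset.sum_singleton]
  have h1 : ∀ k, ∑ i ∈ FS with i.card = k, M i.card = (FS.filter (fun i => i.card = k)).card * M k := by
    intro k
    rw [← smul_eq_mul, ← Finset.sum_const]
    apply Finset.sum_congr rfl
    intro i hi
    rw [(Finset.mem_filter.1 hi).2]
  rw [h1, h1, h1]
  have e1 : (FS.filter (fun i => i.card = 1)).card = 7 := by decide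
  have e2 : (FS.filter (fun i => i.card = 2)).card = 21 := by decide
  have e3 : (FS.filter (fun i => i.card = 3)).card = 35 := by decide
  rw [e1, e2, e3]
  ring

theorem sum_FS_tt (M : ℕ → ℕ) : ∑ Δ ∈ FS with (∀ i ∈ Δ, tt i ∈ Δ), M Δ.card = 3 * M 1 + 5 * M 2 + 7 * M 3 := by
  have h : ∀ Δ ∈ FS.filter (fun Δ => ∀ i ∈ Δ, tt i ∈ Δ), Δ.card ∈ ({1, 2, 3} : Finset ℕ) :=
    fun Δ hΔ => mem_FS_card (Finset.mem_filter.1 hΔ).1
  rw [← Finset.sum_fiberwise_of_maps_to h]
  rw [Finset.sum_insert (by decide), Finset.sum_insert (by decide), Finset.sum_singleton]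
  have h1 : ∀ k, ∑ i ∈ (FS.filter (fun Δ => ∀ i ∈ Δ, tt i ∈ Δ)) with i.card = k, M i.card =
      ((FS.filter (fun Δ => ∀ i ∈ Δ, tt i ∈ Δ)).filter (fun i => i.card = k)).card * M k := by
    intro k
    rw [← smul_eq_mul, ← Finset.sum_const]
    apply Finset.sum_congr rfl
    intro i hi
    rw [(Finset.mem_filter.1 hi).2]
  rw [h1, h1, h1]
  have e1 : ((FS.filter (fun Δ => ∀ i ∈ Δ, tt i ∈ Δ)).filter (fun i => i.card = 1)).card = 3 := by decide
  have e2 : ((FS.filter (fun Δ => ∀ i ∈ Δ, tt i ∈ Δ)).filter (fun i => i.card = 2)).card = 5 := by decide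
  have e3 : ((FS.filter (fun Δ => ∀ i ∈ Δ, tt i ∈ Δ)).filter (fun i => i.card = 3)).card = 7 := by decide
  rw [e1, e2, e3]
  ring

/-! ### orbits -/

theorem dvd_of_orbits {G X : Type*} [Group G] [MulAction G X] [Finite X] {m : ℕ} :
    ∀ S : Set X, (∀ g : G, ∀ c ∈ S, g • c ∈ S) → (∀ c ∈ S, m ∣ (orbit G c).ncard) → m ∣ S.ncard := by
  have key : ∀ (k : ℕ) (S : Set X), S.ncard = k → (∀ g : G, ∀ c ∈ S, g • c ∈ S) →
      (∀ c ∈ S, m ∣ (orbit G c).ncard) → m ∣ S.ncard := by
    intro k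
    induction k using Nat.strong_induction_on with
    | _ k ih =>
      intro S hk hinv hm
      rcases S.eq_empty_or_nonempty with h | ⟨c, hc⟩
      · rw [h, Set.ncard_empty]
        exact dvd_zero m
      · have hsub : orbit G c ⊆ S := by
          rintro _ ⟨g, rfl⟩
          exact hinv g c hc
        have h1 := Set.ncard_sdiff_add_ncard_of_subset hsub (Set.toFinite S)
        rw [← h1]
        apply dvd_add _ (hm c hc)
        have hpos : 0 < (orbit G c).ncard := (Set.ncard_pos (Set.toFinite _)).2 ⟨c, mem_orbit_self c⟩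
        refine ih (S \ orbit G c).ncard (by omega) _ rfl ?_ fun d hd => hm d hd.1
        rintro g d ⟨hd1, hd2⟩
        refine ⟨hinv g d hd1, fun h => hd2 ?_⟩
        rw [← orbit_eq_iff] at h ⊢
        rw [← h, orbit_smul]
  exact fun S => key _ S rfl

/-! ### the frame -/

section main

variable {Q : Type*} [Group Q] {A N : Subgroup Q} {Γ : Subgroup (MulAut Q)}
  {e : N ≃* alternatingGroup (Fin 7)} {ρ : Γ →* Perm (Fin 7)}

theorem fixes_iff (hR : Rho N Γ e ρ) (hS : Soc A N) (h : EPT A Γ) {x : Q} (n : N) :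
    n • (x : Q ⧸ A) = x ↔ (e n : Perm (Fin 7)) ∈ LL h ρ x := by
  have h1 := hR.mem_M0 h (x := x) (a := ⟨n, hS.le n.2⟩)
  rw [hR.con (conjA h ⟨n, hS.le n.2⟩) n rfl] at h1
  rw [← h1, mem_cj]
  have h2 : n • (x : Q ⧸ A) = (((n : Q) * x : Q) : Q ⧸ A) := rfl
  rw [h2, eq_comm, QuotientGroup.eq, mul_assoc]

theorem orbit_card (hR : Rho N Γ e ρ) (hS : Soc A N) (h : EPT A Γ) (x : Q) :
    (orbit N (x : Q ⧸ A)).ncard * Nat.card ↥(LL h ρ x ⊓ A7) = 2520 := by
  have h1 := card_mul_index (stabilizer N (x : Q ⧸ A))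
  rw [index_stabilizer, Nat.card_congr e.toEquiv, card_A7] at h1
  have h2 : (stabilizer N (x : Q ⧸ A)).map (A7.subtype.comp e.toMonoidHom) = LL h ρ x ⊓ A7 := by
    ext g
    constructor
    · rintro ⟨n, hn, rfl⟩
      exact ⟨(fixes_iff hR hS h n).1 hn, (e n).2⟩
    · rintro ⟨h3, h4⟩
      refine ⟨e.symm ⟨g, h4⟩, (fixes_iff hR hS h _).2 ?_, ?_⟩
      · rw [e.apply_symm_apply]
        exact h3
      · change ((e (e.symm ⟨g, h4⟩) : A7) : Perm (Fin 7)) = g
        rw [e.apply_symm_apply]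
  have h3 : Function.Injective (A7.subtype.comp e.toMonoidHom) := A7.subtype_injective.comp e.injective
  rw [← h2, card_map_of_injective h3, mul_comm]
  exact h1

theorem dichotomy [Finite Q] (hR : Rho N Γ e ρ) (hS : Soc A N) (h : EPT A Γ) (hi : A.index ≤ 50) {x : Q} (hx : x ∉ A) :
    ((∃ Δ ∈ FS, ∀ n : N, n • (x : Q ⧸ A) = x ↔ (e n : Perm (Fin 7)) ∈ SS Δ) ∧ 7 ∣ (orbit N (x : Q ⧸ A)).ncard) ∨
      (orbit N (x : Q ⧸ A)).ncard = 15 := by
  have h1 := orbit_card hR hS h x
  rcases types (hR.alt_le hS h) (hR.maxNot hS h (by norm_num) hx) with ⟨Δ, h2, h3, h4⟩ | ⟨Y, h2, h3⟩ | ⟨D, h2, -, h3⟩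
  · left
    refine ⟨⟨Δ, mem_FS.2 ⟨h2, h3⟩, fun n => ?_⟩, ?_⟩
    · rw [fixes_iff hR hS h n, h4]
      exact ⟨fun h5 => h5.2, fun h5 => ⟨hR.alt_le hS h (e n).2, h5⟩⟩
    · have h5 : 7 ∣ (orbit N (x : Q ⧸ A)).ncard * Nat.card ↥(LL h ρ x ⊓ A7) := by
        rw [h1]
        norm_num
      rcases (Nat.Prime.dvd_mul (by norm_num)).1 h5 with h6 | h6
      · exact h6
      · exfalso
        refine not_seven_SS h2 h3 ?_ h6
        rw [h4]
        exact inf_le_left.trans inf_le_right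
  · exfalso
    have h4 : LL h ρ x ⊓ A7 = normalizer (Y : Set (Perm (Fin 7))) ⊓ A7 := by
      rw [h3, inf_assoc, inf_comm, inf_assoc]
      congr 1
      exact inf_eq_left.2 (hR.alt_le hS h)
    rw [h4, (norm_A7 h2).1] at h1
    have h5 : (orbit N (x : Q ⧸ A)).ncard ≤ A.index := by
      rw [index, ← Set.ncard_univ]
      exact Set.ncard_le_ncard (Set.subset_univ _) (Set.toFinite _)
    omega
  · right
    rw [h3, h2.2] at h1
    omega

/-- the orbits -/
theorem index_eq [Finite Q] (hR : Rho N Γ e ρ) (hS : Soc A N) (h : EPT A Γ) (hi : A.index ≤ 50) :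
    ∃ k l, A.index = 1 + 15 * k + 7 * l ∧
      (k = 0 → ∀ x : Q, x ∉ A → ∃ Δ ∈ FS, ∀ n : N, n • (x : Q ⧸ A) = x ↔ (e n : Perm (Fin 7)) ∈ SS Δ) := by
  set a0 : Q ⧸ A := ((1 : Q) : Q ⧸ A) with ha0
  have hne : ∀ x : Q, (x : Q ⧸ A) = a0 ↔ x ∈ A := by
    intro x
    rw [ha0, eq_comm, QuotientGroup.eq, inv_one, one_mul]
  have hfix : ∀ n : N, n • a0 = a0 := by
    intro n
    have h2 : n • a0 = (((n : Q) * 1 : Q) : Q ⧸ A) := rfl
    rw [h2, hne, mul_one]
    exact hS.le n.2
  have hinv : ∀ (n : N) (c : Q ⧸ A), c ≠ a0 → n • c ≠ a0 := by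
    intro n c hc h1
    apply hc
    rw [← hfix n] at h1
    exact smul_left_cancel n h1
  set S15 : Set (Q ⧸ A) := {c | c ≠ a0 ∧ (orbit N c).ncard = 15} with hS15
  set S7 : Set (Q ⧸ A) := {c | c ≠ a0 ∧ 7 ∣ (orbit N c).ncard} with hS7
  have h15 : 15 ∣ S15.ncard := dvd_of_orbits (G := N) S15 (fun n c hc => ⟨hinv n c hc.1, by rw [orbit_smul]; exact hc.2⟩)
    (fun c hc => by rw [hc.2])
  have h7 : 7 ∣ S7.ncard := dvd_of_orbits (G := N) S7 (fun n c hc => ⟨hinv n c hc.1, by rw [orbit_smul]; exact hc.2⟩)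
    (fun c hc => hc.2)
  have hun : (Set.univ : Set (Q ⧸ A)) = insert a0 (S15 ∪ S7) := by
    symm
    rw [Set.eq_univ_iff_forall]
    intro c
    induction c using QuotientGroup.induction_on with
    | H x =>
      by_cases hx : x ∈ A
      · left
        exact (hne x).2 hx
      · right
        have hx' : (x : Q ⧸ A) ≠ a0 := fun h1 => hx ((hne x).1 h1)
        rcases dichotomy hR hS h hi hx with h1 | h1
        · exact Or.inr ⟨hx', h1.2⟩
        · exact Or.inl ⟨hx', h1⟩
  have hidx : A.index = 1 + S15.ncard + S7.ncard := by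
    have h1 : A.index = (Set.univ : Set (Q ⧸ A)).ncard := by rw [index, Set.ncard_univ]
    rw [h1, hun, Set.ncard_insert_of_notMem, Set.ncard_union_eq]
    · omega
    · rw [Set.disjoint_left]
      rintro c ⟨-, h2⟩ ⟨-, h3⟩
      rw [h2] at h3
      norm_num at h3
    · rintro (h2 | h2)
      · exact h2.1 rfl
      · exact h2.1 rfl
  obtain ⟨k, hk⟩ := h15
  obtain ⟨l, hl⟩ := h7
  refine ⟨k, l, by rw [hidx, hk, hl], fun hk0 x hx => ?_⟩
  have hx' : (x : Q ⧸ A) ≠ a0 := fun h1 => hx ((hne x).1 h1)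
  rcases dichotomy hR hS h hi hx with h1 | h1
  · exact h1.1
  · exfalso
    have h2 : (x : Q ⧸ A) ∈ S15 := ⟨hx', h1⟩
    rw [hk0, mul_zero, Set.ncard_eq_zero] at hk
    rw [hk] at h2
    exact h2

/-- the equivariant map to sets of points, and the fixed points of an involution -/
theorem exists_M [Finite Q] (e : A ≃* alternatingGroup (Fin 7))
    (hD : ∀ x : Q, x ∉ A → ∃ Δ ∈ FS, ∀ n : A, n • (x : Q ⧸ A) = x ↔ (e n : Perm (Fin 7)) ∈ SS Δ) :
    ∃ M : ℕ → ℕ, A.index = 1 + (7 * M 1 + 21 * M 2 + 35 * M 3) ∧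
      {c : Q ⧸ A | e.symm ⟨tt, tt_mem⟩ • c = c}.ncard = 1 + (3 * M 1 + 5 * M 2 + 7 * M 3) := by
  classical
  have hfin : Fintype (Q ⧸ A) := Fintype.ofFinite _
  set a0 : Q ⧸ A := ((1 : Q) : Q ⧸ A) with ha0
  have hne : ∀ x : Q, (x : Q ⧸ A) = a0 ↔ x ∈ A := by
    intro x
    rw [ha0, eq_comm, QuotientGroup.eq, inv_one, one_mul]
  have hfix : ∀ n : A, n • a0 = a0 := by
    intro n
    have h2 : n • a0 = (((n : Q) * 1 : Q) : Q ⧸ A) := rfl
    rw [h2, hne, mul_one]
    exact n.2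
  have hinv : ∀ (n : A) (c : Q ⧸ A), c ≠ a0 → n • c ≠ a0 := by
    intro n c hc h1
    apply hc
    rw [← hfix n] at h1
    exact smul_left_cancel n h1
  have hD' : ∀ c : Q ⧸ A, ∃ Δ : Finset (Fin 7), c ≠ a0 →
      (Δ ∈ FS ∧ ∀ n : A, n • c = c ↔ (e n : Perm (Fin 7)) ∈ SS Δ) := by
    intro c
    induction c using QuotientGroup.induction_on with
    | H x =>
      by_cases hx : x ∈ A
      · exact ⟨∅, fun h1 => absurd ((hne x).2 hx) h1⟩
      · obtain ⟨Δ, h1, h2⟩ := hD x hx
        exact ⟨Δ, fun _ => ⟨h1, h2⟩⟩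
  choose D hD using hD'
  have heq : ∀ (n : A) (c : Q ⧸ A), c ≠ a0 → D (n • c) = (e n : Perm (Fin 7)) • D c := by
    intro n c hc
    obtain ⟨h1, h2⟩ := hD c hc
    obtain ⟨h3, h4⟩ := hD (n • c) (hinv n c hc)
    rw [mem_FS] at h1 h3
    apply SS_unique h3.1 (by rw [Finset.card_smul_finset]; exact h1.2) h3.2
    intro g hg hgD
    obtain ⟨m, hm⟩ : ∃ m : A, e m = ⟨g, hg⟩ := ⟨e.symm ⟨g, hg⟩, e.apply_symm_apply _⟩
    have hm' : (e m : Perm (Fin 7)) = g := congrArg Subtype.val hm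
    rw [← hm', ← h4]
    have h5 : (n⁻¹ * m * n) • c = c := by
      rw [h2, map_mul, map_mul, map_inv]
      change ((e n : Perm (Fin 7)))⁻¹ * (e m : Perm (Fin 7)) * (e n : Perm (Fin 7)) ∈ SS (D c)
      rw [hm', mem_stabilizer_iff, mul_smul, mul_smul, mem_stabilizer_iff.1 hgD, inv_smul_smul]
    rw [mul_smul, mul_smul, inv_smul_eq_iff] at h5
    exact h5
  -- the multiplicities
  set s : Finset (Q ⧸ A) := Finset.univ.filter (fun c => c ≠ a0) with hs
  have hms : ∀ c, c ∈ s ↔ c ≠ a0 := fun c => by rw [hs, Finset.mem_filter, and_iff_right (Finset.mem_univ _)]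
  set m : Finset (Fin 7) → ℕ := fun Δ => (s.filter (fun c => D c = Δ)).card with hm
  have hle : ∀ Δ Δ' : Finset (Fin 7), Δ.card = Δ'.card → Δ.card ≤ 3 → m Δ ≤ m Δ' := by
    intro Δ Δ' h1 h3
    obtain ⟨g, hg, hg'⟩ := exists_A7_smul h1 h3
    obtain ⟨n, hn⟩ : ∃ n : A, e n = ⟨g, hg⟩ := ⟨e.symm ⟨g, hg⟩, e.apply_symm_apply _⟩
    have hn' : (e n : Perm (Fin 7)) = g := congrArg Subtype.val hn
    refine Finset.card_le_card_of_injOn (fun c => n • c) ?_ (fun c _ d _ hcd => smul_left_cancel n hcd)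
    intro c hc
    rw [Finset.mem_coe, Finset.mem_filter] at hc ⊢
    refine ⟨(hms _).2 (hinv n c ((hms c).1 hc.1)), ?_⟩
    rw [heq n c ((hms c).1 hc.1), hc.2, hn', hg']
  have hmeq : ∀ Δ Δ' : Finset (Fin 7), Δ.card = Δ'.card → Δ.card ≤ 3 → m Δ = m Δ' := fun Δ Δ' h1 h3 =>
    le_antisymm (hle Δ Δ' h1 h3) (hle Δ' Δ h1.symm (h1 ▸ h3))
  set M : ℕ → ℕ := fun k => m (Finset.univ.filter (fun i : Fin 7 => (i : ℕ) < k)) with hM
  have hmM : ∀ Δ ∈ FS, m Δ = M Δ.card := by
    intro Δ hΔ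
    have h1 := mem_FS.1 hΔ
    apply hmeq _ _ _ h1.2
    have h2 : Δ.card = 1 ∨ Δ.card = 2 ∨ Δ.card = 3 := by omega
    rcases h2 with h2 | h2 | h2 <;> rw [h2] <;> decide
  refine ⟨M, ?_, ?_⟩
  · have h1 : s.card = ∑ Δ ∈ FS, m Δ :=
      Finset.card_eq_sum_card_fiberwise (f := D) (s := s) (t := FS) fun c hc => (hD c ((hms c).1 hc)).1
    rw [Finset.sum_congr rfl hmM, sum_FS] at h1
    rw [← h1]
    have h2 : A.index = Fintype.card (Q ⧸ A) := by rw [index, Nat.card_eq_fintype_card]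
    rw [h2, ← Finset.card_univ, hs, Finset.filter_ne', Finset.card_erase_of_mem (Finset.mem_univ _)]
    have h3 : 0 < (Finset.univ : Finset (Q ⧸ A)).card := Finset.card_pos.2 ⟨a0, Finset.mem_univ _⟩
    omega
  · set t0 : A := e.symm ⟨tt, tt_mem⟩ with ht0
    have het : (e t0 : Perm (Fin 7)) = tt := by rw [ht0, e.apply_symm_apply]
    have hmem : ∀ c, c ≠ a0 → (t0 • c = c ↔ ∀ i ∈ D c, tt i ∈ D c) := by
      intro c hc
      rw [(hD c hc).2 t0, het, mem_SS]
    have h1 : (s.filter (fun c => t0 • c = c)).card =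
        ∑ Δ ∈ FS with (∀ i ∈ Δ, tt i ∈ Δ), ((s.filter (fun c => t0 • c = c)).filter (fun c => D c = Δ)).card := by
      apply Finset.card_eq_sum_card_fiberwise
      intro c hc
      rw [Finset.mem_coe, Finset.mem_filter] at hc ⊢
      have hc0 := (hms c).1 hc.1
      exact ⟨(hD c hc0).1, (hmem c hc0).1 hc.2⟩
    have h2 : ∀ Δ ∈ FS.filter (fun Δ => ∀ i ∈ Δ, tt i ∈ Δ),
        ((s.filter (fun c => t0 • c = c)).filter (fun c => D c = Δ)).card = M Δ.card := by
      intro Δ hΔ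
      rw [Finset.mem_filter] at hΔ
      rw [← hmM Δ hΔ.1, hm]
      congr 1
      ext c
      simp only [Finset.mem_filter]
      constructor
      · rintro ⟨⟨h3, -⟩, h4⟩
        exact ⟨h3, h4⟩
      · rintro ⟨h3, h4⟩
        refine ⟨⟨h3, (hmem c ((hms c).1 h3)).2 ?_⟩, h4⟩
        rw [h4]
        exact hΔ.2
    rw [Finset.sum_congr rfl h2, sum_FS_tt] at h1
    rw [← h1]
    have h3 : {c : Q ⧸ A | t0 • c = c} = insert a0 ((s.filter (fun c => t0 • c = c) : Finset (Q ⧸ A)) : Set (Q ⧸ A)) := by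
      ext c
      rw [Set.mem_insert_iff, Finset.mem_coe, Finset.mem_filter, hms]
      constructor
      · intro h4
        by_cases hc : c = a0
        · exact Or.inl hc
        · exact Or.inr ⟨hc, h4⟩
      · rintro (h4 | h4)
        · rw [h4]
          exact hfix t0
        · exact h4.2
    rw [h3, Set.ncard_insert_of_notMem, Set.ncard_coe_finset]
    · omega
    · rw [Finset.mem_coe, Finset.mem_filter, hms]
      exact fun h4 => h4.1 rfl

/-- `A₇` acting on 50 points with all two point stabilisers of intransitive type -/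
theorem false_of_fifty [Finite Q] (hQ : Nat.card Q = 126000) (e : A ≃* alternatingGroup (Fin 7))
    (hD : ∀ x : Q, x ∉ A → ∃ Δ ∈ FS, ∀ n : A, n • (x : Q ⧸ A) = x ↔ (e n : Perm (Fin 7)) ∈ SS Δ) : False := by
  have hA : Nat.card A = 2520 := by rw [Nat.card_congr e.toEquiv, card_A7]
  have hidx : A.index = 50 := by
    have := card_mul_index A
    rw [hA, hQ] at this
    omega
  set a0 : Q ⧸ A := ((1 : Q) : Q ⧸ A) with ha0
  have hne : ∀ x : Q, (x : Q ⧸ A) = a0 ↔ x ∈ A := by
    intro x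
    rw [ha0, eq_comm, QuotientGroup.eq, inv_one, one_mul]
  obtain ⟨M, h1, h2⟩ := exists_M e hD
  rw [hidx] at h1
  set t0 : A := e.symm ⟨tt, tt_mem⟩ with ht0
  have het : (e t0 : Perm (Fin 7)) = tt := by rw [ht0, e.apply_symm_apply]
  have ht2 : orderOf (t0 : Q) = 2 := by
    rw [Subgroup.orderOf_coe, ← MulEquiv.orderOf_eq e, ← Subgroup.orderOf_coe, het, tt_order]
  set C : Subgroup Q := centralizer {(t0 : Q)} with hC
  -- the centraliser is transitive on the fixed points
  have horb : orbit C a0 = {c : Q ⧸ A | t0 • c = c} := by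
    ext c
    constructor
    · rintro ⟨⟨g, hg⟩, rfl⟩
      rw [hC, mem_centralizer_singleton_iff] at hg
      change t0 • ((g * 1 : Q) : Q ⧸ A) = ((g * 1 : Q) : Q ⧸ A)
      have h4 : t0 • ((g * 1 : Q) : Q ⧸ A) = ((t0 * (g * 1) : Q) : Q ⧸ A) := rfl
      rw [h4, eq_comm, QuotientGroup.eq, mul_one, ← hg, inv_mul_cancel_left]
      exact t0.2
    · intro hc
      induction c using QuotientGroup.induction_on with
      | H x =>
        have h4 : t0 • ((x : Q) : Q ⧸ A) = ((t0 * x : Q) : Q ⧸ A) := rfl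
        have h5 : ((t0 * x : Q) : Q ⧸ A) = (x : Q ⧸ A) := by rw [← h4]; exact hc
        rw [eq_comm, QuotientGroup.eq, ← mul_assoc] at h5
        -- `x⁻¹ t0 x` is an involution of `A`
        have h6 : orderOf ((e ⟨x⁻¹ * t0 * x, h5⟩ : A7) : Perm (Fin 7)) = 2 := by
          rw [Subgroup.orderOf_coe, MulEquiv.orderOf_eq, Subgroup.orderOf_mk]
          have h7 : x⁻¹ * (t0 : Q) * x = MulAut.conj x⁻¹ (t0 : Q) := by
            rw [MulAut.conj_apply, inv_inv]
          rw [h7, MulEquiv.orderOf_eq, ht2]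
        obtain ⟨g, hg, hg'⟩ := conj_tt (e ⟨x⁻¹ * t0 * x, h5⟩).2 h6
        obtain ⟨a, ha⟩ : ∃ a : A, e a = ⟨g, hg⟩ := ⟨e.symm ⟨g, hg⟩, e.apply_symm_apply _⟩
        have h7 : a * ⟨x⁻¹ * t0 * x, h5⟩ * a⁻¹ = t0 := by
          apply e.injective
          apply Subtype.ext
          rw [het, map_mul, map_mul, map_inv, ha]
          exact hg'
        have h8 : (a : Q) * (x⁻¹ * t0 * x) * (a : Q)⁻¹ = t0 := congrArg Subtype.val h7
        refine ⟨⟨x * (a : Q)⁻¹, ?_⟩, ?_⟩
        · rw [hC, mem_centralizer_singleton_iff]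
          nth_rw 1 [← h8]
          group
        · change ((x * (a : Q)⁻¹ * 1 : Q) : Q ⧸ A) = (x : Q ⧸ A)
          rw [QuotientGroup.eq]
          have h9 : (x * (a : Q)⁻¹ * 1)⁻¹ * x = a := by group
          rw [h9]
          exact a.2
  have hst : Nat.card (stabilizer C a0) = 24 := by
    rw [← card_cent_tt]
    have h3 : (stabilizer C a0).map C.subtype = C ⊓ A := by
      ext g
      constructor
      · rintro ⟨⟨g, hg⟩, h4, rfl⟩
        refine ⟨hg, ?_⟩
        have h5 : ((g * 1 : Q) : Q ⧸ A) = a0 := h4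
        rw [hne, mul_one] at h5
        exact h5
      · rintro ⟨h4, h5⟩
        refine ⟨⟨g, h4⟩, ?_, rfl⟩
        change ((g * 1 : Q) : Q ⧸ A) = a0
        rw [hne, mul_one]
        exact h5
    have h4 : (C.subgroupOf A).map (A7.subtype.comp e.toMonoidHom) = centralizer ({tt} : Set (Perm (Fin 7))) ⊓ A7 := by
      ext g
      constructor
      · rintro ⟨a, ha, rfl⟩
        refine ⟨?_, (e a).2⟩
        change (e a : Perm (Fin 7)) ∈ centralizer ({tt} : Set (Perm (Fin 7)))
        rw [mem_centralizer_singleton_iff, ← het]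
        have h5 : (a : Q) * t0 = t0 * a := by
          have h6 : (a : Q) ∈ C := ha
          rwa [hC, mem_centralizer_singleton_iff] at h6
        have h6 : a * t0 = t0 * a := Subtype.ext h5
        have h7 := congrArg (fun b : A => ((e b : A7) : Perm (Fin 7))) h6
        simpa using h7
      · rintro ⟨h5, h6⟩
        refine ⟨e.symm ⟨g, h6⟩, ?_, ?_⟩
        · change ((e.symm ⟨g, h6⟩ : A) : Q) ∈ C
          rw [hC, mem_centralizer_singleton_iff]
          have h7 : e.symm ⟨g, h6⟩ * t0 = t0 * e.symm ⟨g, h6⟩ := by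
            apply e.injective
            apply Subtype.ext
            rw [map_mul, map_mul, e.apply_symm_apply]
            change g * (e t0 : Perm (Fin 7)) = (e t0 : Perm (Fin 7)) * g
            rw [het]
            exact mem_centralizer_singleton_iff.1 h5
          exact congrArg Subtype.val h7
        · change ((e (e.symm ⟨g, h6⟩) : A7) : Perm (Fin 7)) = g
          rw [e.apply_symm_apply]
    have h5 : Function.Injective (A7.subtype.comp e.toMonoidHom) := A7.subtype_injective.comp e.injective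
    rw [← card_map_of_injective C.subtype_injective, h3, ← h4, card_map_of_injective h5, ← inf_subgroupOf_right,
      card_subgroupOf inf_le_right]
  have hcard : Nat.card C = 24 * {c : Q ⧸ A | t0 • c = c}.ncard := by
    rw [← hst, ← horb, ← index_stabilizer]
    exact (card_mul_index _).symm
  have hdvd : Nat.card C ∣ 126000 := by
    rw [← hQ]
    exact card_subgroup_dvd_card C
  have h7C : 7 ∣ Nat.card C := by
    rw [h2] at hcard
    rw [hcard] at hdvd ⊢
    have e3 : M 3 ≤ 1 := by omega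
    have e2 : M 2 ≤ 2 := by omega
    have e1 : M 1 = 7 - 3 * M 2 - 5 * M 3 := by omega
    rw [e1] at hdvd ⊢
    generalize M 2 = b at *
    generalize M 3 = c at *
    interval_cases c <;> interval_cases b
    · exfalso
      revert hdvd
      norm_num
    · exfalso
      revert hdvd
      norm_num
    · norm_num
    · norm_num
    · omega
    · omega
  -- an element of order 7 commuting with `t0`
  obtain ⟨⟨y, hyC⟩, hy⟩ := exists_prime_orderOf_dvd_card' 7 h7C
  rw [Subgroup.orderOf_mk] at hy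
  rw [hC, mem_centralizer_singleton_iff] at hyC
  have hp : IsPGroup 7 (zpowers y) := IsPGroup.of_card (n := 1) (by rw [Nat.card_zpowers, hy, pow_one])
  have hmod := hp.card_modEq_card_fixedPoints (Q ⧸ A)
  rw [← index, hidx] at hmod
  have hnonempty : Nonempty (fixedPoints (zpowers y) (Q ⧸ A)) := by
    by_contra h3
    rw [not_nonempty_iff] at h3
    rw [Nat.card_of_isEmpty] at hmod
    exact absurd hmod (by decide)
  obtain ⟨⟨c, hc⟩⟩ := hnonempty
  induction c using QuotientGroup.induction_on with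
  | H x =>
    have h3 : ((y * x : Q) : Q ⧸ A) = (x : Q ⧸ A) := hc ⟨y, mem_zpowers y⟩
    rw [eq_comm, QuotientGroup.eq, ← mul_assoc] at h3
    have hy' : orderOf (x⁻¹ * y * x) = 7 := by
      have h7 : x⁻¹ * y * x = MulAut.conj x⁻¹ y := by
        rw [MulAut.conj_apply, inv_inv]
      rw [h7, MulEquiv.orderOf_eq, hy]
    have ht' : orderOf (x⁻¹ * (t0 : Q) * x) = 2 := by
      have h7 : x⁻¹ * (t0 : Q) * x = MulAut.conj x⁻¹ (t0 : Q) := by
        rw [MulAut.conj_apply, inv_inv]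
      rw [h7, MulEquiv.orderOf_eq, ht2]
    have hcom : x⁻¹ * y * x * (x⁻¹ * (t0 : Q) * x) = x⁻¹ * (t0 : Q) * x * (x⁻¹ * y * x) := by
      calc x⁻¹ * y * x * (x⁻¹ * (t0 : Q) * x) = x⁻¹ * (y * t0) * x := by group
        _ = x⁻¹ * (t0 * y) * x := by rw [hyC]
        _ = _ := by group
    have hey : orderOf ((e ⟨x⁻¹ * y * x, h3⟩ : A7) : Perm (Fin 7)) = 7 := by
      rw [Subgroup.orderOf_coe, MulEquiv.orderOf_eq, Subgroup.orderOf_mk, hy']
    by_cases htA : x⁻¹ * (t0 : Q) * x ∈ A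
    · have h4 : ((e ⟨x⁻¹ * t0 * x, htA⟩ : A7) : Perm (Fin 7)) ∈
          centralizer ({((e ⟨x⁻¹ * y * x, h3⟩ : A7) : Perm (Fin 7))} : Set (Perm (Fin 7))) := by
        rw [mem_centralizer_singleton_iff]
        have h5 : (⟨x⁻¹ * t0 * x, htA⟩ : A) * ⟨x⁻¹ * y * x, h3⟩ = ⟨x⁻¹ * y * x, h3⟩ * ⟨x⁻¹ * t0 * x, htA⟩ :=
          Subtype.ext hcom.symm
        have h6 : e ⟨x⁻¹ * t0 * x, htA⟩ * e ⟨x⁻¹ * y * x, h3⟩ = e ⟨x⁻¹ * y * x, h3⟩ * e ⟨x⁻¹ * t0 * x, htA⟩ := by
          rw [← map_mul, h5, map_mul]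
        exact congrArg Subtype.val h6
      have h5 := orderOf_dvd_natCard (⟨_, h4⟩ : centralizer ({((e ⟨x⁻¹ * y * x, h3⟩ : A7) : Perm (Fin 7))} :
        Set (Perm (Fin 7))))
      rw [card_cent_seven hey, Subgroup.orderOf_mk, Subgroup.orderOf_coe, MulEquiv.orderOf_eq, Subgroup.orderOf_mk,
        ht'] at h5
      norm_num at h5
    · obtain ⟨Δ, hΔ, h4⟩ := hD _ htA
      rw [mem_FS] at hΔ
      have h5 : (e ⟨x⁻¹ * y * x, h3⟩ : Perm (Fin 7)) ∈ SS Δ := by
        rw [← h4]
        change ((x⁻¹ * y * x * (x⁻¹ * (t0 : Q) * x) : Q) : Q ⧸ A) = ((x⁻¹ * (t0 : Q) * x : Q) : Q ⧸ A)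
        rw [hcom, eq_comm, QuotientGroup.eq, inv_mul_cancel_left]
        exact h3
      refine not_seven_SS hΔ.1 hΔ.2 (D := zpowers (e ⟨x⁻¹ * y * x, h3⟩ : Perm (Fin 7))) (by
        rw [zpowers_le]
        exact h5) ?_
      rw [Nat.card_zpowers, hey]

/-- **(A7, tight)** `EPT` with socle `A₇` is impossible in `U₃(5)` -/
theorem seven_tight [Finite Q] (h : EPT A Γ) (hS : Cfsg.Agent.H419.EP.HasSoc A (alternatingGroup (Fin 7)))
    (hQ : Nat.card Q = 126000) : False := by
  obtain ⟨N, h1, h2, h3, ⟨e⟩⟩ := hS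
  have hS : Soc A N := ⟨h1, h2, h3⟩
  obtain ⟨ρ, hR⟩ := exists_rho hS h le_rfl e
  have hN : Nat.card N = 2520 := by rw [Nat.card_congr e.toEquiv, card_A7]
  -- `|A| = 2520` or `5040`
  have hinj : Function.Injective (ρ.comp (conjA h)) := by
    refine hR.inj.comp ?_
    rw [injective_iff_map_eq_one]
    intro a ha
    apply Subtype.ext
    apply hS.cen a a.2
    intro x _
    have h4 : (MulAut.conj (a : Q)) = 1 := congrArg Subtype.val ha
    have h5 : MulAut.conj (a : Q) x = x := by rw [h4]; rfl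
    rw [MulAut.conj_apply, mul_inv_eq_iff_eq_mul] at h5
    exact h5
  have hA1 : Nat.card A ∣ 5040 := by
    rw [← card_P7]
    exact card_dvd_of_injective _ hinj
  have hA2 : 2520 ∣ Nat.card A := by
    rw [← hN]
    exact card_dvd_of_le h1
  have hA3 : Nat.card A = 2520 ∨ Nat.card A = 5040 := by
    obtain ⟨k, hk⟩ := hA2
    rw [hk] at hA1 ⊢
    have h4 : k ∣ 2 := Nat.dvd_of_mul_dvd_mul_left (k := 2520) (by norm_num) hA1
    rcases (Nat.dvd_prime Nat.prime_two).1 h4 with h5 | h5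
    · left; rw [h5]
    · right; rw [h5]
  have hidx := card_mul_index A
  rw [hQ] at hidx
  rcases hA3 with hA | hA
  · rw [hA] at hidx
    have hidx' : A.index = 50 := by omega
    obtain ⟨k, l, h4, h5⟩ := index_eq hR hS h (by omega)
    have hk : k = 0 := by omega
    have hNA : N = A := Subgroup.eq_of_le_of_card_ge h1 (by rw [hA, hN])
    subst hNA
    exact false_of_fifty hQ e (h5 hk)
  · rw [hA] at hidx
    have hidx' : A.index = 25 := by omega
    obtain ⟨k, l, h4, -⟩ := index_eq hR hS h (by omega)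
    omega

end main

end Cfsg.Agent.H220.EP
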